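import Cfsg.Agent.H621.BR.Grp
import Cfsg.Agent.H748.BR.OmDefs

/-!
# HUB BR, orthogonal groups: the two copies of the concrete objects agree

`rho_eq`, `BK_eq`, `rt_eq`, `vK_eq` : the objects of `H621/BR/Grp` and `H748/BR/OmDefs` are equal.
-/

set_option autoImplicit false

namespace Cfsg.Agent.H872.BR

open Cfsg Cfsg.Agent.H883.BR

theorem rt_eq {K : Type*} [Field K] {V : Type*} [AddCommGroup V] [Module K V] (B : LinearMap.BilinForm K V) :
    H621.BR.rt B = H748.BR.wdg B := rfl

variable {F : Type} [Field F] {ι : Type} [Fintype ι] [DecidableEq ι] (Q : QuadraticForm F (ι → F))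
  (K : Type) [Field K] [Algebra F K]

omit [Fintype ι] [DecidableEq ι] in
theorem vK_eq (v : ι → F) : H621.BR.jm F K ι v = H748.BR.vK K v := rfl

theorem rho_eq : H621.BR.rho Q K = H748.BR.rho Q K := rfl

theorem BK_eq : H621.BR.BK Q K = H748.BR.BK Q K := by
  refine H621.BR.lin_ext (F := F) fun u => H621.BR.lin_ext (F := F) fun v => ?_
  rw [H621.BR.BK_jm, vK_eq, vK_eq, H748.BR.BK_vK]

end Cfsg.Agent.H872.BR
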