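import Cfsg.Agent.LieClassical.OrthFinite

/-!
# HUB BR, orthogonal groups: an upper bound for the order

`card_O_le` : `|O(Q)| ≤ 3 ^ n * q ^ (n choose 2)` for every non-degenerate quadratic form (any characteristic);
`card_Omega_le` : the same for `Omega F Q`.
-/

set_option autoImplicit false

namespace Cfsg.Agent.H872.BR

open Module QuadraticMap Cfsg.Agent.LieClassical.OrthCore

section quadric

variable {F V : Type*} [Field F] [AddCommGroup V] [Module F V] {Q : QuadraticForm F V}

theorem Q_add_smul (x u : V) (t : F) : Q (x + t • u) = Q x + t * polar Q x u + t ^ 2 * Q u := by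
  rw [Q_add, QuadraticMap.map_smul, polar_smul_right, smul_eq_mul, smul_eq_mul]
  ring

/-- the points of a quadric in an affine subspace on which the form is not constant -/
theorem card_quadric [Finite F] [Finite V] (U : Submodule F V) (a : V) {u : V} (hu : u ∈ U) (hau : polar Q a u ≠ 0)
    (c : F) : Nat.card F * Nat.card {x : V // x - a ∈ U ∧ Q x = c} ≤ 3 * Nat.card U := by
  classical
  have := Fintype.ofFinite F
  have := Fintype.ofFinite V
  set φ : V → F := fun x => (polar Q a u)⁻¹ * polar Q a x with hφ
  have hφu : ∀ (x : V) (t : F), φ (x + t • u) = φ x + t := by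
    intro x t
    simp only [hφ, polar_add_right, polar_smul_right, smul_eq_mul]
    field_simp
  -- the affine space and the transversal
  have hA : Nat.card {x : V // x - a ∈ U} = Nat.card U := by
    refine Nat.card_congr ⟨fun x => ⟨x.1 - a, x.2⟩, fun y => ⟨y.1 + a, by rw [add_sub_cancel_right]; exact y.2⟩,
      fun x => ?_, fun y => ?_⟩
    · exact Subtype.ext (sub_add_cancel _ _)
    · exact Subtype.ext (add_sub_cancel_right _ _)
  have hA0 : Nat.card {x : V // x - a ∈ U ∧ φ x = 0} * Nat.card F ≤ Nat.card U := by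
    rw [← hA, ← Nat.card_prod]
    refine Nat.card_le_card_of_injective
      (fun z : {x : V // x - a ∈ U ∧ φ x = 0} × F => (⟨z.1.1 + z.2 • u, ?_⟩ : {x : V // x - a ∈ U})) ?_
    · have : z.1.1 + z.2 • u - a = (z.1.1 - a) + z.2 • u := by abel
      rw [this]
      exact U.add_mem z.1.2.1 (U.smul_mem _ hu)
    · rintro ⟨⟨x, hx, hx0⟩, t⟩ ⟨⟨y, hy, hy0⟩, s⟩ h
      have h1 : x + t • u = y + s • u := congrArg Subtype.val h
      have h2 := congrArg φ h1
      rw [hφu, hφu, hx0, hy0, zero_add, zero_add] at h2
      subst h2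
      have h3 : x = y := add_right_cancel h1
      subst h3
      rfl
  -- the degenerate lines
  have hS2 : Nat.card {x : V // x - a ∈ U ∧ polar Q x u = 0} * Nat.card F ≤ Nat.card U := by
    by_cases hv : ∃ v ∈ U, polar Q v u ≠ 0
    · obtain ⟨v, hv, hvu⟩ := hv
      rw [← hA, ← Nat.card_prod]
      refine Nat.card_le_card_of_injective
        (fun z : {x : V // x - a ∈ U ∧ polar Q x u = 0} × F => (⟨z.1.1 + z.2 • v, ?_⟩ : {x : V // x - a ∈ U})) ?_
      · have : z.1.1 + z.2 • v - a = (z.1.1 - a) + z.2 • v := by abel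
        rw [this]
        exact U.add_mem z.1.2.1 (U.smul_mem _ hv)
      · rintro ⟨⟨x, hx, hx0⟩, t⟩ ⟨⟨y, hy, hy0⟩, s⟩ h
        have h1 : x + t • v = y + s • v := congrArg Subtype.val h
        have h2 := congrArg (fun z => polar Q z u) h1
        simp only [polar_add_left, polar_smul_left, smul_eq_mul, hx0, hy0, zero_add] at h2
        have h4 : t = s := mul_right_cancel₀ hvu h2
        subst h4
        have h3 : x = y := add_right_cancel h1
        subst h3
        rfl
    · push Not at hv
      have : IsEmpty {x : V // x - a ∈ U ∧ polar Q x u = 0} := by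
        refine ⟨fun x => hau ?_⟩
        have h1 := hv _ x.2.1
        have h2 : polar Q (x.1 - a) u = polar Q x.1 u - polar Q a u := polar_sub_left Q x.1 a u
        rw [h1, x.2.2] at h2
        linear_combination h2
      rw [Nat.card_of_isEmpty, zero_mul]
      exact Nat.zero_le _
  -- the other lines
  have hS1 : (Finset.univ.filter fun x : V => (x - a ∈ U ∧ Q x = c) ∧ ¬ (Q u = 0 ∧ polar Q x u = 0)).card ≤
      2 * (Finset.univ.filter fun x : V => x - a ∈ U ∧ φ x = 0).card := by
    refine (Finset.card_le_mul_card_image (f := fun x => x - φ x • u) _ 2 ?_).trans (Nat.mul_le_mul_left 2 ?_)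
    · intro y _
      set p : Polynomial F := Polynomial.C (Q u) * Polynomial.X ^ 2 + Polynomial.C (polar Q y u) * Polynomial.X +
        Polynomial.C (Q y - c) with hp
      by_cases hyu : Q u = 0 ∧ polar Q y u = 0
      · refine le_trans (Finset.card_le_card (t := ∅) ?_) (by simp)
        intro x hx
        exfalso
        rw [Finset.mem_filter, Finset.mem_filter] at hx
        apply hx.1.2.2
        refine ⟨hyu.1, ?_⟩
        have h1 : x = y + φ x • u := by rw [← hx.2]; abel
        rw [h1, polar_add_left, polar_smul_left, hyu.2, polar_self_of_sing hyu.1, smul_zero, add_zero]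
      · have hp0 : p ≠ 0 := by
          intro h0
          apply hyu
          constructor
          · have := congrArg (fun r => Polynomial.coeff r 2) h0
            simpa [hp] using this
          · have := congrArg (fun r => Polynomial.coeff r 1) h0
            simpa [hp] using this
        have hdeg : p.natDegree ≤ 2 := by
          rw [hp]
          compute_degree
        refine le_trans ?_ ((Multiset.toFinset_card_le _).trans ((Polynomial.card_roots' p).trans hdeg))
        refine Finset.card_le_card_of_injOn φ ?_ ?_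
        · intro x hx
          rw [Finset.mem_coe, Finset.mem_filter, Finset.mem_filter] at hx
          have h1 : x = y + φ x • u := by rw [← hx.2]; abel
          rw [Finset.mem_coe, Multiset.mem_toFinset, Polynomial.mem_roots hp0, Polynomial.IsRoot.def]
          have h2 := hx.1.2.1.2
          rw [h1, Q_add_smul] at h2
          simp only [hp, Polynomial.eval_add, Polynomial.eval_mul, Polynomial.eval_C, Polynomial.eval_pow,
            Polynomial.eval_X]
          linear_combination h2
        · intro x hx x' hx' h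
          rw [Finset.mem_coe, Finset.mem_filter] at hx hx'
          have h1 : x = y + φ x • u := by rw [← hx.2]; abel
          have h2 : x' = y + φ x' • u := by rw [← hx'.2]; abel
          rw [h1, h2, h]
    · refine Finset.card_le_card ?_
      intro y hy
      rw [Finset.mem_image] at hy
      obtain ⟨x, hx, rfl⟩ := hy
      rw [Finset.mem_filter] at hx
      refine Finset.mem_filter.2 ⟨Finset.mem_univ _, ?_, ?_⟩
      · have : x - φ x • u - a = (x - a) - φ x • u := by abel
        rw [this]
        exact U.sub_mem hx.2.1.1 (U.smul_mem _ hu)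
      · have := hφu x (-(φ x))
        rw [neg_smul, ← sub_eq_add_neg, add_neg_cancel] at this
        exact this
  have e1 : Nat.card {x : V // x - a ∈ U ∧ Q x = c} = (Finset.univ.filter fun x : V => x - a ∈ U ∧ Q x = c).card := by
    rw [Nat.card_eq_fintype_card, Fintype.card_subtype]
  have e2 : Nat.card {x : V // x - a ∈ U ∧ φ x = 0} = (Finset.univ.filter fun x : V => x - a ∈ U ∧ φ x = 0).card := by
    rw [Nat.card_eq_fintype_card, Fintype.card_subtype]
  have e3 : Nat.card {x : V // x - a ∈ U ∧ polar Q x u = 0} =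
      (Finset.univ.filter fun x : V => x - a ∈ U ∧ polar Q x u = 0).card := by
    rw [Nat.card_eq_fintype_card, Fintype.card_subtype]
  have e4 : (Finset.univ.filter fun x : V => x - a ∈ U ∧ Q x = c).card ≤
      (Finset.univ.filter fun x : V => (x - a ∈ U ∧ Q x = c) ∧ ¬ (Q u = 0 ∧ polar Q x u = 0)).card +
      (Finset.univ.filter fun x : V => x - a ∈ U ∧ polar Q x u = 0).card := by
    rw [← Finset.card_filter_add_card_filter_not (s := Finset.univ.filter fun x : V => x - a ∈ U ∧ Q x = c)
      (fun x => Q u = 0 ∧ polar Q x u = 0), add_comm, Finset.filter_filter, Finset.filter_filter]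
    refine Nat.add_le_add_left (Finset.card_le_card ?_) _
    intro x hx
    rw [Finset.mem_filter] at hx ⊢
    exact ⟨hx.1, hx.2.1.1, hx.2.2.2⟩
  rw [e2] at hA0
  rw [e3] at hS2
  rw [e1]
  calc Nat.card F * (Finset.univ.filter fun x : V => x - a ∈ U ∧ Q x = c).card
      ≤ Nat.card F * (2 * (Finset.univ.filter fun x : V => x - a ∈ U ∧ φ x = 0).card +
        (Finset.univ.filter fun x : V => x - a ∈ U ∧ polar Q x u = 0).card) :=
        Nat.mul_le_mul_left _ (e4.trans (Nat.add_le_add_right hS1 _))
    _ = 2 * ((Finset.univ.filter fun x : V => x - a ∈ U ∧ φ x = 0).card * Nat.card F) +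
        (Finset.univ.filter fun x : V => x - a ∈ U ∧ polar Q x u = 0).card * Nat.card F := by ring
    _ ≤ 2 * Nat.card U + Nat.card U := Nat.add_le_add (Nat.mul_le_mul_left _ hA0) hS2
    _ = 3 * Nat.card U := by ring

end quadric

section stab

theorem card_le_orbit_mul {G X : Type*} [Group G] [Finite G] [MulAction G X] (H : Subgroup G) (x : X) (T : Set X)
    [Finite T] (hT : ∀ g ∈ H, g • x ∈ T) :
    Nat.card H ≤ Nat.card T * Nat.card (H ⊓ MulAction.stabilizer G x : Subgroup G) := by
  classical
  have hs : ∀ t : X, ∃ g : G, g ∈ H ∧ ((∃ k ∈ H, k • x = t) → g • x = t) := by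
    intro t
    by_cases h : ∃ k ∈ H, k • x = t
    · obtain ⟨k, hk, hkx⟩ := h
      exact ⟨k, hk, fun _ => hkx⟩
    · exact ⟨1, H.one_mem, fun h' => absurd h' h⟩
  choose s hsH hs using hs
  rw [← Nat.card_prod]
  refine Nat.card_le_card_of_injective (fun g : H => ((⟨(g : G) • x, hT g g.2⟩ : T),
    (⟨(s ((g : G) • x))⁻¹ * g, ?_⟩ : (H ⊓ MulAction.stabilizer G x : Subgroup G)))) ?_
  · refine ⟨H.mul_mem (H.inv_mem (hsH _)) g.2, ?_⟩
    change ((s ((g : G) • x))⁻¹ * (g : G)) • x = x
    have h1 := hs ((g : G) • x) ⟨(g : G), g.2, rfl⟩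
    rw [mul_smul, inv_smul_eq_iff, h1]
  · intro g g' h
    rw [Prod.mk.injEq] at h
    have h1 : (g : G) • x = (g' : G) • x := congrArg Subtype.val h.1
    have h2 : (s ((g : G) • x))⁻¹ * (g : G) = (s ((g' : G) • x))⁻¹ * g' := congrArg Subtype.val h.2
    rw [h1] at h2
    exact Subtype.ext (mul_left_cancel h2)

end stab

section main

variable {F V : Type*} [Field F] [AddCommGroup V] [Module F V] {Q : QuadraticForm F V}

theorem card_O_le [Finite F] [FiniteDimensional F V] (hQ : Nondeg Q) :
    Nat.card (O Q) ≤ 3 ^ finrank F V * Nat.card F ^ (finrank F V).choose 2 := by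
  classical
  have : Finite V := Module.finite_of_finite F
  have : Finite (V ≃ₗ[F] V) := Finite.of_injective (fun g : V ≃ₗ[F] V => (g : V → V)) DFunLike.coe_injective
  obtain ⟨n, hn⟩ : ∃ n, finrank F V = n := ⟨_, rfl⟩
  rw [hn]
  have b : Basis (Fin n) F V := finBasisOfFinrankEq F V hn
  have hB : (polarBilin Q).Nondegenerate :=
    ⟨fun x hx => hQ x hx, fun y hy => hQ y fun x => by rw [polar_comm]; exact hy x⟩
  have hext : ∀ x : V, (∀ i, polar Q x (b i) = 0) → x = 0 := by
    intro x hx
    apply hQ
    intro y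
    rw [← b.sum_repr y]
    change polarBilin Q x _ = 0
    rw [map_sum]
    refine Finset.sum_eq_zero fun i _ => ?_
    rw [map_smul, polarBilin_apply_apply, hx i, smul_zero]
  -- pointwise stabilisers
  set S : ℕ → Subgroup (V ≃ₗ[F] V) := fun k =>
    { carrier := {g | g ∈ O Q ∧ ∀ i : Fin n, (i : ℕ) < k → g (b i) = b i}
      one_mem' := ⟨(O Q).one_mem, fun i _ => rfl⟩
      mul_mem' := fun {g h} hg hh => ⟨(O Q).mul_mem hg.1 hh.1, fun i hi => by
        rw [LinearEquiv.mul_apply, hh.2 i hi, hg.2 i hi]⟩
      inv_mem' := fun {g} hg => ⟨(O Q).inv_mem hg.1, fun i hi => by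
        conv_lhs => rw [← hg.2 i hi]
        rw [← LinearEquiv.mul_apply, inv_mul_cancel]
        rfl⟩ } with hS
  set U : ℕ → Submodule F V := fun k =>
    { carrier := {x | ∀ i : Fin n, (i : ℕ) < k → polar Q x (b i) = 0}
      zero_mem' := fun i _ => by rw [polar_zero_left]
      add_mem' := fun {x y} hx hy i hi => by rw [polar_add_left, hx i hi, hy i hi, add_zero]
      smul_mem' := fun c x hx i hi => by rw [polar_smul_left, hx i hi, smul_zero] } with hU
  have hUc : ∀ k ≤ n, Nat.card (U k) ≤ Nat.card F ^ (n - k) := by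
    intro k hk
    have e : Nat.card (Fin (n - k) → F) = Nat.card F ^ (n - k) := by
      rw [Nat.card_fun, Nat.card_fin]
    rw [← e]
    refine Nat.card_le_card_of_injective
      (fun x : U k => fun j : Fin (n - k) => polar Q (x : V) (b ⟨k + j, by omega⟩)) ?_
    intro x y hxy
    apply Subtype.ext
    rw [← sub_eq_zero]
    apply hext
    intro i
    rw [polar_sub_left, sub_eq_zero]
    by_cases hi : (i : ℕ) < k
    · rw [x.2 i hi, y.2 i hi]
    · have h1 := congrFun hxy ⟨(i : ℕ) - k, by omega⟩
      have h2 : (⟨k + ((i : ℕ) - k), by omega⟩ : Fin n) = i := Fin.ext (by simp; omega)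
      simp only [h2] at h1
      exact h1
  have key : ∀ k < n, Nat.card (S k) ≤ 3 * Nat.card F ^ (n - k - 1) * Nat.card (S (k + 1)) := by
    intro k hk
    set T : Set V := {x : V | x - b ⟨k, hk⟩ ∈ U k ∧ Q x = Q (b ⟨k, hk⟩)} with hT
    have h1 := card_le_orbit_mul (S k) (b ⟨k, hk⟩) T (by
      intro g hg
      refine ⟨fun i hi => ?_, hg.1 _⟩
      change polar Q (g (b ⟨k, hk⟩) - b ⟨k, hk⟩) (b i) = 0
      rw [polar_sub_left]
      conv_lhs => enter [1, 3]; rw [← hg.2 i hi]
      rw [polar_map hg.1, sub_self])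
    have h2 : Nat.card (S k ⊓ MulAction.stabilizer (V ≃ₗ[F] V) (b ⟨k, hk⟩) : Subgroup (V ≃ₗ[F] V)) ≤
        Nat.card (S (k + 1)) := by
      refine Nat.card_le_card_of_injective (Subgroup.inclusion ?_) (Subgroup.inclusion_injective _)
      rintro g ⟨hg, hg'⟩
      refine ⟨hg.1, fun i hi => ?_⟩
      by_cases hik : (i : ℕ) < k
      · exact hg.2 i hik
      · have : i = ⟨k, hk⟩ := Fin.ext (by simp; omega)
        rw [this]
        exact hg'
    have h3 : Nat.card T ≤ 3 * Nat.card F ^ (n - k - 1) := by
      set u := LinearMap.BilinForm.dualBasis (polarBilin Q) hB b ⟨k, hk⟩ with hu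
      have hub : ∀ i, polar Q u (b i) = if i = ⟨k, hk⟩ then 1 else 0 := fun i =>
        LinearMap.BilinForm.apply_dualBasis_left hB b ⟨k, hk⟩ i
      have h4 := card_quadric (Q := Q) (U k) (b ⟨k, hk⟩) (u := u) (fun i hi => by
        rw [hub, if_neg]
        rintro rfl
        exact lt_irrefl _ hi) (by rw [polar_comm, hub, if_pos rfl]; exact one_ne_zero) (Q (b ⟨k, hk⟩))
      have h5 : Nat.card F ^ (n - k) = Nat.card F * Nat.card F ^ (n - k - 1) := by
        rw [← pow_succ']
        congr 1
        omega
      have h6 := h4.trans (Nat.mul_le_mul_left 3 (hUc k hk.le))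
      rw [h5] at h6
      have h7 : Nat.card F * Nat.card T ≤ Nat.card F * (3 * Nat.card F ^ (n - k - 1)) := by
        refine le_of_eq_of_le ?_ (h6.trans (le_of_eq (by ring)))
        rfl
      exact Nat.le_of_mul_le_mul_left h7 Nat.card_pos
    exact h1.trans (Nat.mul_le_mul h3 h2)
  have main : ∀ m ≤ n, Nat.card (S (n - m)) ≤ 3 ^ m * Nat.card F ^ m.choose 2 := by
    intro m
    induction m with
    | zero =>
      intro _
      have hb : S (n - 0) = ⊥ := by
        rw [eq_bot_iff]
        intro g hg
        rw [Subgroup.mem_bot]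
        apply LinearEquiv.toLinearMap_injective
        exact b.ext fun i => hg.2 i (by simp)
      rw [hb]
      simp
    | succ m ih =>
      intro hm
      have h1 := key (n - (m + 1)) (by omega)
      have h2 : n - (m + 1) + 1 = n - m := by omega
      have h3 : n - (n - (m + 1)) - 1 = m := by omega
      rw [h2, h3] at h1
      refine h1.trans ((Nat.mul_le_mul_left _ (ih (by omega))).trans (le_of_eq ?_))
      rw [Nat.choose_succ_succ' m 1, Nat.choose_one_right, pow_add, pow_succ]
      ring
  have h0 : S (n - n) = O Q := by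
    rw [Nat.sub_self]
    ext g
    exact ⟨fun hg => hg.1, fun hg => ⟨hg, fun i hi => absurd hi (Nat.not_lt_zero _)⟩⟩
  have := main n le_rfl
  rwa [h0] at this

theorem card_Omega_le {F : Type*} [Field F] [Finite F] {ι : Type} [Fintype ι] [DecidableEq ι]
    (Q : QuadraticForm F (ι → F)) (hQ : Nondeg Q) :
    Nat.card (Cfsg.Omega F (fun v : ι → F => Q v)) ≤
      3 ^ Fintype.card ι * Nat.card F ^ (Fintype.card ι).choose 2 := by
  have h1 := card_O_le hQ
  rw [finrank_fintype_fun_eq_card] at h1
  refine le_trans ?_ h1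
  have : Finite ((ι → F) ≃ₗ[F] (ι → F)) :=
    Finite.of_injective (fun g : (ι → F) ≃ₗ[F] (ι → F) => (g : (ι → F) → (ι → F))) DFunLike.coe_injective
  exact Nat.card_le_card_of_injective
    (fun g : Cfsg.Omega F (fun v : ι → F => Q v) =>
      Cfsg.Agent.LieClassical.OrthFinite.isometryEquiv Q (g : Cfsg.isometryGroup F ⇑Q))
    fun g g' h => Subtype.ext ((Cfsg.Agent.LieClassical.OrthFinite.isometryEquiv Q).injective h)

end main

end Cfsg.Agent.H872.BR
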