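import Cfsg.Agent.H872.BR.OmPre
import Cfsg.Agent.H435.BR.OmE

/-!
# HUB BR: the family `Ω(Q)`, `q` even
-/

set_option autoImplicit false

namespace Cfsg.Agent.H872.BR

open Module Cfsg Cfsg.Agent.H883.BR Cfsg.Agent.LieClassical.OrthCore Cfsg.Agent.LieClassical.OrthTrans
open Cfsg.Agent.H748.BR (Om rho BK wdg vK lam lam0)

/-- the assembly -/
theorem fam_of {F : Type} [Field F] [Fintype F] {ι : Type} [Fintype ι] [DecidableEq ι] (Q : QuadraticForm F (ι → F))
    {n d : ℕ} (hn : Fintype.card ι = n) (h8 : 8 ≤ n) (hQ : ∀ v, (∀ w, QuadraticMap.polar Q v w = 0) → v = 0)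
    (heven : Even (Fintype.card F)) (hd : n.choose 2 = d + 1)
    (h1 : 3 ^ n * d.factorial + 3 ≤ Fintype.card F) (h2 : n + 3 ≤ Fintype.card F)
    (h3 : 2 * n ^ 2 < Fintype.card F)
    {W : Type} [AddCommGroup W] [Module (AlgebraicClosure F) W] [FiniteDimensional (AlgebraicClosure F) W]
    {σ : Om Q →* Module.End (AlgebraicClosure F) W}
    (hdimW : finrank (AlgebraicClosure F) W ≤ n ^ 2) (hdimW2 : 2 ≤ finrank (AlgebraicClosure F) W)
    (hpolyW : ∀ hG : Good Q, PolyDeg σ (H212.BR.base F) (H621.BR.xs (AlgebraicClosure F) hG) 2)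
    (hinh : ∀ M : Subgroup (Om Q), Dns (ad (rho Q (AlgebraicClosure F))) M → Irr σ M)
    (hcen : ∀ (z : Om Q) (c : AlgebraicClosure F), rho Q (AlgebraicClosure F) z = c • 1 → σ z = 1)
    (hext : ∀ M U : Subgroup (Om Q), U ≤ M → IsPGroup 2 U → U ≠ ⊥ → Dns (ad (rho Q (AlgebraicClosure F))) M →
      ∀ w : W, w ≠ 0 → (∀ v : W, (∀ u ∈ U, σ u v = v) ↔ ∃ c : AlgebraicClosure F, v = c • w) →
    ∃ z ∈ U, ∃ a : Module.End (AlgebraicClosure F) (ι → AlgebraicClosure F), a ≠ 0 ∧ a * a = 0 ∧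
      rho Q (AlgebraicClosure F) z = 1 + a ∧
      (∀ b ∈ M, (∀ u ∈ U, b * u * b⁻¹ ∈ U) → ∀ c : AlgebraicClosure F, σ b w = c • w →
        ad (rho Q (AlgebraicClosure F)) b a = c • a) ∧
      ∀ S : Submodule (AlgebraicClosure F) (Module.End (AlgebraicClosure F) (ι → AlgebraicClosure F)),
        Inv (ad (rho Q (AlgebraicClosure F))) ⊤ S → a ∈ S → d ≤ Module.finrank (AlgebraicClosure F) S)
    (htrF : ∀ g : Om Q, LinearMap.trace (AlgebraicClosure F) W (σ g) ∈ H212.BR.base F)
    (hpw : ∀ k, 0 < k → 2 * k + 1 < Fintype.card F → ∃ g : Om Q, ad (rho Q (AlgebraicClosure F)) (g ^ k) ≠ 1) :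
    Fam 2 n d (Fintype.card F) (H212.BR.base F) (rho Q (AlgebraicClosure F)) σ := by
  have hc2 := charP_two heven
  have hG : Good Q := good_om hQ (by omega)
  have hcard : Nat.card (H212.BR.base F) = Fintype.card F := by
    rw [H212.BR.card_base, Nat.card_eq_fintype_card]
  have hfin : Finite (H212.BR.base F) := H212.BR.finite_base F
  subst hn
  exact
  { prime := Nat.prime_two
    char := H212.BR.charP_closure F 2
    closed := inferInstance
    locfin := H212.BR.locfin F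
    finF := hfin
    cardF := hcard
    finG := inferInstance
    qs := qs_om hQ (by omega)
    fdV := inferInstance
    fdW := inferInstance
    dimV := Module.finrank_fintype_fun_eq_card _
    two_le := by omega
    dimW := hdimW
    inj := H748.BR.rho_inj
    irr := H621.BR.irr_rho _ hG
    tprim := tprim_om _ hQ (by omega) h2 hcard
    root := ⟨_, H621.BR.xs (AlgebraicClosure F) hG, H621.BR.oneP _ hG, H621.BR.polyDeg_rho _ hG, hpolyW hG⟩
    inh := hinh
    cen := hcen
    ext := hext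
    trF := htrF
    count := count_om hQ (by omega) hd h1
    trn := by
      obtain ⟨g, -, hg⟩ := exists_ne_one (H := ⊤) (hinh ⊤ fun U hU => hU) hdimW2
      exact H583.BR.Trn.trn_of_irr (F := H212.BR.base F) (e := 2) (hinh ⊤ fun U hU => hU) (H621.BR.oneP _ hG)
        (hpolyW hG) (by rw [hcard]; omega) ⟨g, hg⟩
    pw := hpw }

theorem finrank_le_subQ {K U : Type*} [Field K] [AddCommGroup U] [Module K U] (S1 S2 : Submodule K U)
    [FiniteDimensional K S1] [FiniteDimensional K S2] :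
    finrank K S1 ≤ finrank K (H435.BR.SubQ S1 S2) + finrank K S2 := by
  have h9 := Submodule.finrank_quotient_add_finrank (S2.comap S1.subtype)
  have h10 : finrank K (S2.comap S1.subtype) ≤ finrank K S2 :=
    LinearMap.finrank_le_finrank_of_injective (f := (S1.subtype.restrict (p := S2.comap S1.subtype) (q := S2)
      fun x hx => hx)) fun x y h => Subtype.ext (Subtype.ext (congrArg (fun z : S2 => (z : U)) h))
  change finrank K S1 ≤ finrank K (S1 ⧸ S2.comap S1.subtype) + _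
  omega

theorem two_le_WE {F : Type} [Field F] [Finite F] {ι : Type} [Fintype ι] [DecidableEq ι] {Q : QuadraticForm F (ι → F)}
    (K : Type) [Field K] [Algebra F K] (hG : Good Q) (h2 : (2 : F) = 0) (hd : 7 ≤ Fintype.card ι) :
    2 ≤ finrank K (H435.BR.WE Q K) := by
  have h5 := H435.BR.finrank_lam0_ge K hG h2 hd
  have h6 := H435.BR.finrank_scal_le K (ι := ι)
  have h7 : 7 * 6 ≤ Fintype.card ι * (Fintype.card ι - 1) := Nat.mul_le_mul hd (by omega)
  have h8 : 7 * 6 / 2 ≤ Fintype.card ι * (Fintype.card ι - 1) / 2 := Nat.div_le_div_right h7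
  have h9 : finrank K (lam0 (H748.BR.BK Q K)) ≤ finrank K (H435.BR.WE Q K) + finrank K (H435.BR.scal K (ι → K)) :=
    finrank_le_subQ (lam0 (H748.BR.BK Q K)) (H435.BR.scal K (ι → K))
  omega

theorem fam_sgE {F : Type} [Field F] [Fintype F] {ι : Type} [Fintype ι] [DecidableEq ι] (Q : QuadraticForm F (ι → F))
    {n : ℕ} (hn : Fintype.card ι = n) (h8 : 8 ≤ n) (hQ : ∀ v, (∀ w, QuadraticMap.polar Q v w = 0) → v = 0)
    (heven : Even (Fintype.card F))
    (hq : 3 ^ n * (n * (n - 1) / 2 - 1).factorial + 3 + n + 2 * n ^ 2 ≤ Fintype.card F)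
    (hext : ∀ U : Subgroup (Om Q), IsPGroup 2 U → U ≠ ⊥ →
      ∀ w : H435.BR.WE Q (AlgebraicClosure F), w ≠ 0 →
      (∀ v : H435.BR.WE Q (AlgebraicClosure F), (∀ u ∈ U, H435.BR.sgE Q (AlgebraicClosure F) u v = v) ↔
        ∃ c : AlgebraicClosure F, v = c • w) →
    ∃ z ∈ U, ∃ a : Module.End (AlgebraicClosure F) (ι → AlgebraicClosure F), a ≠ 0 ∧ a * a = 0 ∧
      rho Q (AlgebraicClosure F) z = 1 + a ∧
      (∀ b : Om Q, (∀ u ∈ U, b * u * b⁻¹ ∈ U) → ∀ c : AlgebraicClosure F,
        H435.BR.sgE Q (AlgebraicClosure F) b w = c • w → ad (rho Q (AlgebraicClosure F)) b a = c • a) ∧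
      a ∈ lam (BK Q (AlgebraicClosure F)))
    (htrF : ∀ g : Om Q, LinearMap.trace (AlgebraicClosure F) (H435.BR.WE Q (AlgebraicClosure F))
      (H435.BR.sgE Q (AlgebraicClosure F) g) ∈ (algebraMap F (AlgebraicClosure F)).fieldRange)
    (hpw : ∀ k, 0 < k → 2 * k + 1 < Fintype.card F → ∃ g : Om Q, ad (rho Q (AlgebraicClosure F)) (g ^ k) ≠ 1) :
    HasFam.{0, 0} n (Fintype.card F) (Omega F (fun v : ι → F => Q v)) := by
  have hc2 := charP_two heven
  have h2 : (2 : F) = 0 := CharTwo.two_eq_zero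
  have hG : Good Q := good_om hQ (by omega)
  have hq1 : 1 ≤ 3 ^ n * (n * (n - 1) / 2 - 1).factorial :=
    Nat.mul_pos (pow_pos (by norm_num) n) (Nat.factorial_pos _)
  have hq3 : 3 ≤ Nat.card F := by
    rw [Nat.card_eq_fintype_card]
    omega
  have hbig : 8 * 7 / 2 ≤ n * (n - 1) / 2 := Nat.div_le_div_right (Nat.mul_le_mul h8 (by omega))
  have hd : n.choose 2 = (n * (n - 1) / 2 - 1) + 1 := by
    rw [Nat.choose_two_right]
    omega
  refine ⟨2, n * (n - 1) / 2 - 1, AlgebraicClosure F, inferInstance, H212.BR.base F, ι → AlgebraicClosure F,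
    H435.BR.WE Q (AlgebraicClosure F), inferInstance, inferInstance, inferInstance, inferInstance,
    rho Q (AlgebraicClosure F), H435.BR.sgE Q (AlgebraicClosure F), ?_⟩
  refine fam_of Q hn h8 hQ heven hd (by omega) (by omega) (by omega) ?_ (two_le_WE _ hG h2 (by omega)) ?_ ?_ ?_ ?_ htrF
    hpw
  · rw [← hn]
    exact H435.BR.finrank_WE_le _
  · intro hG
    exact H435.BR.sgE_polyDeg _ hG hq3
  · intro M hM
    exact H435.BR.sgE_irr _ hG h2 hq3 (by omega) hM
  · intro z c hz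
    exact H435.BR.sgE_cen _ hz
  · intro M U _ hU hU1 _ w hw hfix
    obtain ⟨z, hz, a, ha0, haa, hza, hb, hal⟩ := hext U hU hU1 w hw hfix
    refine ⟨z, hz, a, ha0, haa, hza, fun b _ hb' c hc => hb b hb' c hc, fun S hS haS => ?_⟩
    rw [← hn]
    refine H435.BR.ome_le_finrank _ hG h2 hq3 (by omega) hS haS hal fun c hc => ?_
    rw [hc, smul_mul_smul_comm, one_mul] at haa
    have hne : (1 : Module.End (AlgebraicClosure F) (ι → AlgebraicClosure F)) ≠ 0 := by
      have : Nonempty ι := Fintype.card_pos_iff.1 (by omega)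
      exact one_ne_zero
    rcases smul_eq_zero.1 haa with h | h
    · rw [mul_self_eq_zero.1 h, zero_smul] at hc
      exact ha0 hc
    · exact hne h

end Cfsg.Agent.H872.BR
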