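import Cfsg.Agent.H748.BR.OmDefs

/-!
# HUB BR: the quadratic form over `K`

* `QK Q K`, `polar_QK` (`= BK`), `QK_vK`, `QK_rho`.
-/

set_option autoImplicit false

namespace Cfsg.Agent.H872.BR

open Module QuadraticMap Cfsg Cfsg.Agent.H883.BR Cfsg.Agent.H748.BR

variable {F : Type} [Field F] {ι : Type} [Fintype ι] [DecidableEq ι] (Q : QuadraticForm F (ι → F))
  (K : Type) [Field K] [Algebra F K]

/-- a matrix of the quadratic form -/
theorem exists_mat : ∃ A : Matrix ι ι F, ∀ v, Q v = Matrix.toBilin' A v v := by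
  obtain ⟨B, hB⟩ := LinearMap.BilinMap.toQuadraticMap_surjective Q
  refine ⟨LinearMap.BilinForm.toMatrix' B, fun v => ?_⟩
  rw [Matrix.toBilin'_toMatrix', ← hB]
  rfl

/-- a matrix of the quadratic form -/
noncomputable def amat : Matrix ι ι F := Classical.choose (exists_mat Q)

theorem amat_spec (v : ι → F) : Q v = Matrix.toBilin' (amat Q) v v := Classical.choose_spec (exists_mat Q) v

/-- **the quadratic form over `K`** -/
noncomputable def QK : QuadraticForm K (ι → K) :=
  LinearMap.BilinMap.toQuadraticMap (Matrix.toBilin' ((amat Q).map (algebraMap F K)))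

theorem QK_apply (x : ι → K) : QK Q K x = ∑ i, ∑ j, x i * algebraMap F K (amat Q i j) * x j := by
  rw [QK, LinearMap.BilinMap.toQuadraticMap_apply, Matrix.toBilin'_apply]
  rfl

theorem QK_vK (v : ι → F) : QK Q K (vK K v) = algebraMap F K (Q v) := by
  rw [QK_apply, amat_spec, Matrix.toBilin'_apply, map_sum]
  refine Finset.sum_congr rfl fun i _ => ?_
  rw [map_sum]
  refine Finset.sum_congr rfl fun j _ => ?_
  rw [map_mul, map_mul]
  rfl

theorem polar_QK (x y : ι → K) : polar (QK Q K) x y = BK Q K x y := by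
  have h : polarBilin (QK Q K) = BK Q K := by
    apply BK_ext
    intro i j
    have e1 : ∀ i : ι, (Pi.single i 1 : ι → K) = vK K (Pi.single i (1 : F)) := fun i => by
      rw [vK_single, map_one]
    rw [e1, e1, BK_vK, polarBilin_apply_apply, polar, polar, ← vK_add, QK_vK, QK_vK, QK_vK, map_sub, map_sub]
  exact congrArg (fun C : LinearMap.BilinForm K (ι → K) => C x y) h

variable {Q K}

theorem QK_rho (g : Om Q) (x : ι → K) : QK Q K (rho Q K g x) = QK Q K x := by
  -- the difference is additive
  have hadd : ∀ x y : ι → K, QK Q K (rho Q K g x) = QK Q K x → QK Q K (rho Q K g y) = QK Q K y →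
      QK Q K (rho Q K g (x + y)) = QK Q K (x + y) := by
    intro x y hx hy
    rw [map_add, QuadraticMap.map_add (QK Q K), hx, hy, polar_QK, BK_rho, ← polar_QK, ← QuadraticMap.map_add (QK Q K)]
  have hsum : ∀ s : Finset ι, QK Q K (rho Q K g (∑ i ∈ s, x i • Pi.single i (1 : K))) =
      QK Q K (∑ i ∈ s, x i • Pi.single i (1 : K)) := by
    classical
    intro s
    induction s using Finset.induction_on with
    | empty => simp
    | insert i s hi ih =>
      rw [Finset.sum_insert hi]
      refine hadd _ _ ?_ ih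
      have e1 : (Pi.single i 1 : ι → K) = vK K (Pi.single i (1 : F)) := by rw [vK_single, map_one]
      rw [map_smul, QuadraticMap.map_smul, QuadraticMap.map_smul, e1, rho_vK, QK_vK, QK_vK, matF_isom]
  have h := hsum Finset.univ
  have hx : ∑ i, x i • Pi.single i (1 : K) = x := by
    funext j
    simp [Finset.sum_apply, Pi.single_apply]
  rwa [hx] at h

end Cfsg.Agent.H872.BR
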