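import Cfsg.Agent.H748.BR.OmFrob
import Cfsg.Agent.H872.BR.OmEven
import Cfsg.Agent.H872.BR.QK
import Cfsg.Agent.H580.BR.EvenExt
import Cfsg.Agent.H212.BR.Pw

/-!
# HUB BR: the family `Ω(Q)`, `q` even: `fam_omega_even`
-/

set_option autoImplicit false

namespace Cfsg.Agent.H872.BR

open Module Cfsg Cfsg.Agent.H883.BR Cfsg.Agent.H748.BR Cfsg.Agent.LieClassical.OrthTrans

/-- the traces of `sgE` lie in `F` -/
theorem trF_sgE {F : Type} [Field F] [Fintype F] {ι : Type} [Fintype ι] [DecidableEq ι] {Q : QuadraticForm F (ι → F)}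
    (g : Om Q) : LinearMap.trace (AlgebraicClosure F) (H435.BR.WE Q (AlgebraicClosure F))
      (H435.BR.sgE Q (AlgebraicClosure F) g) ∈ (algebraMap F (AlgebraicClosure F)).fieldRange := by
  refine trace_quot (S := lam0 (BK Q (AlgebraicClosure F))) (fun τ hτ X hX => frE_lam0 hτ hX)
    (Submodule.mkQ _) (Submodule.mkQ_surjective _) (fun X => ?_) g (fun X hX => lam0_inv g trivial X hX)
    (fun X => H435.BR.sgE_mk _ g X)
  rw [Submodule.mkQ_apply, H435.BR.subQ_mk_eq_zero, H435.BR.mem_scal]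

/-- the quadratic form and its polar form -/
theorem qb_om {F : Type} [Field F] {ι : Type} [Fintype ι] [DecidableEq ι] (Q : QuadraticForm F (ι → F))
    (K : Type) [Field K] [CharP K 2] [Algebra F K] (hQ : ∀ v, (∀ w, QuadraticMap.polar Q v w = 0) → v = 0) :
    H580.BR.QB (fun v => QK Q K v) (BK Q K) where
  symm x y := BK_comm x y
  alt x := by rw [← polar_QK, QuadraticMap.polar_self, two_nsmul, CharTwo.add_self_eq_zero]
  add x y := by rw [← polar_QK, QuadraticMap.map_add (QK Q K)]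
  smul c x := by rw [QuadraticMap.map_smul, smul_eq_mul]
  nd x hx := BK_nondeg hQ hx

/-- **The family `Ω(Q)`, `q` even.** -/
theorem fam_omega_even (n : ℕ) (hn : 8 ≤ n) : ∃ q₀ : ℕ, ∀ (F : Type) [Field F] [Fintype F], q₀ ≤ Fintype.card F →
    Even (Fintype.card F) → ∀ (ι : Type) [Fintype ι] [DecidableEq ι] (Q : QuadraticForm F (ι → F)),
    Fintype.card ι = n → (∀ v, (∀ w, QuadraticMap.polar Q v w = 0) → v = 0) →
    HasFam.{0, 0} n (Fintype.card F) (Omega F (fun v : ι → F => Q v)) := by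
  refine ⟨3 ^ n * (n * (n - 1) / 2 - 1).factorial + 3 + n + 2 * n ^ 2, ?_⟩
  intro F _ _ hq heven ι _ _ Q hc hQ
  have hc2 := charP_two heven
  have h2 : (2 : F) = 0 := CharTwo.two_eq_zero
  have hG : Good Q := good_om hQ (by omega)
  have hq1 : 1 ≤ 3 ^ n * (n * (n - 1) / 2 - 1).factorial :=
    Nat.mul_pos (pow_pos (by norm_num) n) (Nat.factorial_pos _)
  have hq3 : 3 ≤ Nat.card F := by
    rw [Nat.card_eq_fintype_card]
    omega
  have hbig : 8 * 7 / 2 ≤ n * (n - 1) / 2 := Nat.div_le_div_right (Nat.mul_le_mul hn (by omega))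
  have hd : n.choose 2 = (n * (n - 1) / 2 - 1) + 1 := by
    rw [Nat.choose_two_right]
    omega
  have hK2 : CharP (AlgebraicClosure F) 2 := H212.BR.charP_closure F 2
  refine ⟨2, n * (n - 1) / 2 - 1, AlgebraicClosure F, inferInstance, H212.BR.base F, ι → AlgebraicClosure F,
    H435.BR.WE Q (AlgebraicClosure F), inferInstance, inferInstance, inferInstance, inferInstance,
    rho Q (AlgebraicClosure F), H435.BR.sgE Q (AlgebraicClosure F), ?_⟩
  refine fam_of Q hc hn hQ heven hd (by omega) (by omega) (by omega) ?_ (two_le_WE _ hG h2 (by omega)) ?_ ?_ ?_ ?_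
    (fun g => trF_sgE g) (H212.BR.pw_om _ hQ (by omega))
  · rw [← hc]
    exact H435.BR.finrank_WE_le _
  · intro hG
    exact H435.BR.sgE_polyDeg _ hG hq3
  · intro M hM
    exact H435.BR.sgE_irr _ hG h2 hq3 (by omega) hM
  · intro z c hz
    exact H435.BR.sgE_cen _ hz
  · intro M U hUM hU hU1 _
    have hP := H435.BR.pol_om (AlgebraicClosure F) hG h2 (by omega)
    refine H580.BR.ext_even (qb_om Q (AlgebraicClosure F) hQ) ?_ (rho Q (AlgebraicClosure F)) rho_inj
      (fun g x => QK_rho g x) (lam0 (BK Q (AlgebraicClosure F))) ?_ (fun g X hX => lam0_inv g trivial X hX)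
      (H435.BR.sgE Q (AlgebraicClosure F)) (Submodule.mkQ _) (Submodule.mkQ_surjective _) ?_
      (fun g X => H435.BR.sgE_mk _ g X) ?_ M U hUM hU hU1
    · rw [Module.finrank_fintype_fun_eq_card]
      omega
    · intro e f hef
      have h1 : H580.BR.wd (BK Q (AlgebraicClosure F)) e f = wdg (BK Q (AlgebraicClosure F)) e f :=
        H435.BR.rt_eq_wdg hP.two e f
      rw [h1]
      exact Submodule.subset_span ⟨e, f, hef, rfl⟩
    · intro X
      rw [Submodule.mkQ_apply, H435.BR.subQ_mk_eq_zero, H435.BR.mem_scal]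
    · rintro S hS ⟨X, hXS, hXL, hXs⟩
      rw [← hc]
      exact H435.BR.ome_le_finrank _ hG h2 hq3 (by omega) hS hXS (H435.BR.lam0_le_lam hP hXL) hXs

end Cfsg.Agent.H872.BR
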