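import Cfsg.Agent.H872.BR.Card
import Cfsg.Agent.H872.BR.Bridge
import Cfsg.Agent.H16.BR.Idx
import Cfsg.Agent.H168.BR.TPrim
import Cfsg.Agent.H212.BR.Gen
import Cfsg.Agent.H583.BR.Trn

/-!
# HUB BR: the fields of `Fam` for `Ω(Q)`, in the form needed for `q` even

* `qs_om`, `count_om`, `tprim_om`.
-/

set_option autoImplicit false

namespace Cfsg.Agent.H872.BR

open Module Cfsg Cfsg.Agent.H883.BR Cfsg.Agent.LieClassical.OrthCore Cfsg.Agent.LieClassical.OrthTrans
open Cfsg.Agent.H748.BR (Om rho BK wdg vK)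

variable {F : Type} [Field F] {ι : Type} [Fintype ι] [DecidableEq ι] {Q : QuadraticForm F (ι → F)}

omit [DecidableEq ι] in
theorem good_om [Finite F] (hQ : ∀ v, (∀ w, QuadraticMap.polar Q v w = 0) → v = 0) (h5 : 5 ≤ Fintype.card ι) :
    Good Q :=
  LieClassical.OrthFinite.good_of_finite hQ (by rwa [Module.finrank_fintype_fun_eq_card])

theorem qs_om [Finite F] (hQ : ∀ v, (∀ w, QuadraticMap.polar Q v w = 0) → v = 0) (h5 : 5 ≤ Fintype.card ι) :
    QS (Om Q) := H16.BR.qs_of (H16.BR.quasi_omega hQ h5)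

/-- indices of proper subgroups -/
theorem idx_om [Fintype F] (hQ : ∀ v, (∀ w, QuadraticMap.polar Q v w = 0) → v = 0) (h7 : 7 ≤ Fintype.card ι) {c : ℕ}
    (hc : c + 3 ≤ Fintype.card F) {M : Subgroup (Om Q)} (hM : M ≠ ⊤) : c * Fintype.card F < M.index :=
  H16.BR.idx_omega hQ h7 hc hM

/-- the count for `d + 1 = n (n - 1) / 2` -/
theorem count_om [Fintype F] (hQ : ∀ v, (∀ w, QuadraticMap.polar Q v w = 0) → v = 0) (h7 : 7 ≤ Fintype.card ι) {d : ℕ}
    (hd : (Fintype.card ι).choose 2 = d + 1) (hc : 3 ^ Fintype.card ι * d.factorial + 3 ≤ Fintype.card F) :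
    ∀ M : Subgroup (Om Q), M ≠ ⊤ → Nat.card M < Nat.choose (Fintype.card F - 1 + d) d := by
  refine H212.BR.count_of_index (c := 3 ^ Fintype.card ι) Fintype.card_pos ?_ fun M hM => idx_om hQ h7 hc hM
  have h1 := card_Omega_le Q hQ
  rw [Nat.card_eq_fintype_card (α := F), hd] at h1
  exact h1

/-- primitivity -/
theorem tprim_om [Fintype F] (K : Type) [Field K] [Algebra F K] [IsAlgClosed K]
    (hQ : ∀ v, (∀ w, QuadraticMap.polar Q v w = 0) → v = 0) (h7 : 7 ≤ Fintype.card ι)
    (hc : Fintype.card ι + 3 ≤ Fintype.card F) (h : Nat.card (algebraMap F K).fieldRange = Fintype.card F) :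
    TPrim (rho Q K) := by
  have hG := good_om hQ (by omega)
  have : Finite (algebraMap F K).fieldRange := Finite.of_surjective (algebraMap F K).rangeRestrictField
    (algebraMap F K).rangeRestrictField_bijective.2
  have hfr : finrank K (ι → K) = Fintype.card ι := Module.finrank_fintype_fun_eq_card K
  refine H168.BR.tprim_of_roots (F := (algebraMap F K).fieldRange) (r := 2) (by omega) (qs_om hQ (by omega))
    (H621.BR.irr_rho K hG) (fun M hM => ?_) {a | ∃ p, H621.BR.rr Q K p = a} ?_ (by omega) ?_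
  · by_contra hne
    have h1 := idx_om hQ h7 (c := Fintype.card ι) hc hne
    have h2 : Fintype.card ι * 1 ≤ Fintype.card ι * Fintype.card F := Nat.mul_le_mul_left _ Fintype.card_pos
    omega
  · rintro _ ⟨p, rfl⟩
    exact ⟨H621.BR.rt_root K hG p, H621.BR.finrank_range_rt K _ _⟩
  · intro X hX
    exact H621.BR.scalar_of_roots K hG fun p => hX _ ⟨p, rfl⟩

/-- an irreducible representation of degree at least two is not trivial -/
theorem exists_ne_one {K G W : Type*} [Field K] [Group G] [AddCommGroup W] [Module K W] [FiniteDimensional K W]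
    {σ : G →* Module.End K W} {H : Subgroup G} (hirr : Irr σ H) (h2 : 2 ≤ finrank K W) : ∃ g ∈ H, σ g ≠ 1 := by
  by_contra hcon
  push Not at hcon
  have := hirr.1
  obtain ⟨w, hw⟩ := exists_ne (0 : W)
  rcases hirr.2 (Submodule.span K {w}) (fun g hg v hv => by rw [hcon g hg]; exact hv) with h | h
  · exact hw ((Submodule.mem_bot K).1 (h ▸ Submodule.mem_span_singleton_self w))
  · have h1 := finrank_span_le_card (R := K) ({w} : Set W)
    rw [h, finrank_top, Set.toFinset_card, Fintype.card_unique] at h1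
    omega

/-- the characteristic -/
theorem charP_two [Fintype F] (h : Even (Fintype.card F)) : CharP F 2 := by
  obtain ⟨p, hc⟩ := CharP.exists F
  obtain ⟨n, hp, hcard⟩ := FiniteField.card F p
  have h2 : 2 ∣ p := by
    rw [hcard] at h
    exact Nat.prime_two.dvd_of_dvd_pow h.two_dvd
  rw [(Nat.prime_dvd_prime_iff_eq Nat.prime_two hp).1 h2]
  exact hc

end Cfsg.Agent.H872.BR
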